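import Cfsg.Agent.H613.KS.Par
import Cfsg.Agent.H644.Maximal
import Cfsg.Agent.H649.Transport
import Cfsg.Agent.S0973

/-!
# S4577: heights zero for defect groups `2^4`, from PA4 and PAFive
-/

set_option autoImplicit false

open Cfsg Cfsg.Agent.H613.KS

namespace Cfsg.Agent.H613.KS

universe u

/-- A block of `C_G(D)` inducing `B` and its stabilizer (`exists_pair` of H610/KS/Asm). -/
theorem exists_pair {G : Type u} [Group G] [Finite G] {M : Ideal AlgInt} {B : Set (IrrCharacter G)} {D : Subgroup G}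
    (hM : IsPModular 2 M) (hB : IsPBlock M B) (hD : IsDefectGroup 2 M B D) (h16 : E16 D) :
    ∃ (c : Set (IrrCharacter ↥(Subgroup.centralizer (D : Set G)))) (T : Subgroup G),
      IsInducedBlock M (Subgroup.centralizer (D : Set G)) c B ∧
      ∀ g : G, g ∈ T ↔ (g ∈ Subgroup.normalizer (D : Set G) ∧
        StabilizesBlock (Subgroup.centralizer (D : Set G)) c g) := by
  have : Fact (Nat.Prime 2) := ⟨Nat.prime_two⟩
  have : M.IsPrime := hM.2.1.isPrime
  have hcomm : ∀ x ∈ D, ∀ y ∈ D, x * y = y * x := by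
    intro x hx y hy
    have h1 := h16.inv _ (D.mul_mem hx hy)
    have h2 := h16.inv x hx
    have h3 := h16.inv y hy
    have e1 : x⁻¹ = x := inv_eq_of_mul_eq_one_left h2
    have e2 : y⁻¹ = y := inv_eq_of_mul_eq_one_left h3
    have e3 : (x * y)⁻¹ = x * y := inv_eq_of_mul_eq_one_left h1
    rw [← e3, mul_inv_rev, e1, e2]
  have hDC : D ≤ Subgroup.centralizer (D : Set G) := by
    intro x hx
    rw [Subgroup.mem_centralizer_iff]
    intro y hy
    exact hcomm y hy x hx
  have hL : D ⊔ Subgroup.centralizer (D : Set G) = Subgroup.centralizer (D : Set G) :=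
    sup_eq_right.2 hDC
  have key : ∀ L : Subgroup G, L = D ⊔ Subgroup.centralizer (D : Set G) →
      ∃ b : Set (IrrCharacter L), IsDefectGroup 2 M b (D.subgroupOf L) ∧
        IsInducedBlock M L b B := by
    rintro L rfl
    exact (S0973.result 2 M hM B hB D hD).1
  obtain ⟨c, -, hc⟩ := key _ hL.symm
  exact ⟨c, H644.pairStab M D c, hc, fun g => H644.mem_pairStab_iff_stabilizesBlock hM hc.1⟩

/-- heights zero for all groups, from PA4 (`5 ∤ e`) and PAFive (`5 ∣ e`) -/
theorem hz_of (h4 : Props.PA4.{u}) (h5 : Par.PAFive.{u}) (G : Type u) [Group G] [Finite G] : HZ G := by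
  intro M hM B hB D hD h16 χ hχ
  obtain ⟨c, T, hc, hT⟩ := exists_pair hM hB hD h16
  by_cases h : 5 ∣ (Subgroup.centralizer (D : Set G)).relIndex T
  · exact h5 hM hB hD h16 c hc T hT h χ hχ
  · exact h4 hM hB hD h16 c hc T hT h χ hχ

end Cfsg.Agent.H613.KS
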