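import Mathlib
import Cfsg.Agent.H613.KS.Defs
import Cfsg.Prelude.Def_CaseTheorems

/-!
# S4577: the statements of the block side (16-version of H38/KKL/Props.lean), as propositions

The statements `PB1` ... are those of S4546 with `E16`, `Five`, `HZ` (of `H613/KS/Defs.lean`) instead of `E8`,
`Seven`, `HZ` (of `H613/KKL/Defs.lean`); `Cov`, `Inv` are the same.
-/

set_option autoImplicit false

open Cfsg Cfsg.Agent.H613.KS
open Cfsg.Agent.H613.KKL (Cov Inv)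

namespace Cfsg.Agent.H613.KS.Props

universe u

def PA1 : Prop :=
  ∀ {G : Type u} [Group G] [Finite G] {M : Ideal AlgInt} (_ : IsPModular 2 M) {B : Set (IrrCharacter G)}
    (_ : IsPBlock M B) {D : Subgroup G} (_ : IsDefectGroup 2 M B D) (_ : E16 D),
    ∃ x : G, Odd (orderOf x) ∧ (∀ d ∈ D, d * x = x * d) ∧ ∀ Q : Subgroup G, IsPGroup 2 Q →
      (∀ q ∈ Q, q * x = x * q) → ∃ c : G, c * x = x * c ∧ ∀ q ∈ Q, c * q * c⁻¹ ∈ D

def PA5 : Prop :=
  ∀ {G : Type u} [Group G] [Finite G] {M : Ideal AlgInt} (_ : IsPModular 2 M) {B : Set (IrrCharacter G)}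
    (_ : IsPBlock M B) {D : Subgroup G} (_ : IsDefectGroup 2 M B D) (_ : E16 D)
    {χ : IrrCharacter G} (_ : χ ∈ B) (_ : blockHeight 2 B (χ : G → ℂ) ≠ 0),
    ∃ (x : G) (θ : IrrCharacter ↥(Subgroup.centralizer (D : Set G))), CfgB D x θ

def PA2 : Prop :=
  ∀ {G : Type u} [Group G] [Finite G] {M : Ideal AlgInt} (_ : IsPModular 2 M) {B : Set (IrrCharacter G)}
    (_ : IsPBlock M B) {D : Subgroup G} (_ : IsDefectGroup 2 M B D) (_ : E16 D)
    (R : Subgroup G) (_ : R ≤ D) (N : Subgroup G) (_ : IsPGroup 2 N) (_ : N ≤ Subgroup.centralizer (R : Set G))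
    (_ : ∀ c ∈ Subgroup.centralizer (R : Set G), ∀ n ∈ N, c * n * c⁻¹ ∈ N), N ≤ D

/-- inertial index divisible by 5: the canonical character and the element `y` -/
def PA3 : Prop :=
  ∀ {G : Type u} [Group G] [Finite G] {M : Ideal AlgInt} (_ : IsPModular 2 M) {B : Set (IrrCharacter G)}
    (_ : IsPBlock M B) {D : Subgroup G} (_ : IsDefectGroup 2 M B D) (_ : E16 D)
    (c : Set (IrrCharacter ↥(Subgroup.centralizer (D : Set G))))
    (_ : IsInducedBlock M (Subgroup.centralizer (D : Set G)) c B) (T : Subgroup G)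
    (_ : ∀ g : G, g ∈ T ↔ (g ∈ Subgroup.normalizer (D : Set G) ∧
      StabilizesBlock (Subgroup.centralizer (D : Set G)) c g))
    (_ : 5 ∣ (Subgroup.centralizer (D : Set G)).relIndex T),
    ∃ θ : IrrCharacter ↥(Subgroup.centralizer (D : Set G)),
      (∀ d e : ↥(Subgroup.centralizer (D : Set G)), (d : G) ∈ D →
        (θ : ↥(Subgroup.centralizer (D : Set G)) → ℂ) (d * e) = (θ : ↥(Subgroup.centralizer (D : Set G)) → ℂ) e) ∧
      (charDegree (θ : ↥(Subgroup.centralizer (D : Set G)) → ℂ)).factorization 2 + 4 =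
        (Nat.card ↥(Subgroup.centralizer (D : Set G))).factorization 2 ∧
      (∃ y : G, Five D y ∧ ∀ e e' : ↥(Subgroup.centralizer (D : Set G)), (e' : G) = y * e * y⁻¹ →
        (θ : ↥(Subgroup.centralizer (D : Set G)) → ℂ) e' = (θ : ↥(Subgroup.centralizer (D : Set G)) → ℂ) e) ∧
      ∀ g : G, (∀ d : G, g * d * g⁻¹ ∈ D ↔ d ∈ D) → (∃ k : ℕ, orderOf g = 2 ^ k) →
        (∀ e e' : ↥(Subgroup.centralizer (D : Set G)), (e' : G) = g * e * g⁻¹ →
          (θ : ↥(Subgroup.centralizer (D : Set G)) → ℂ) e' = (θ : ↥(Subgroup.centralizer (D : Set G)) → ℂ) e) →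
        ∀ d ∈ D, g * d = d * g

/-- inertial index prime to 5: heights zero -/
def PA4 : Prop :=
  ∀ {G : Type u} [Group G] [Finite G] {M : Ideal AlgInt} (_ : IsPModular 2 M) {B : Set (IrrCharacter G)}
    (_ : IsPBlock M B) {D : Subgroup G} (_ : IsDefectGroup 2 M B D) (_ : E16 D)
    (c : Set (IrrCharacter ↥(Subgroup.centralizer (D : Set G))))
    (_ : IsInducedBlock M (Subgroup.centralizer (D : Set G)) c B) (T : Subgroup G)
    (_ : ∀ g : G, g ∈ T ↔ (g ∈ Subgroup.normalizer (D : Set G) ∧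
      StabilizesBlock (Subgroup.centralizer (D : Set G)) c g))
    (_ : ¬ 5 ∣ (Subgroup.centralizer (D : Set G)).relIndex T), ∀ χ ∈ B, blockHeight 2 B (χ : G → ℂ) = 0

/-- A1 with the value of the characters of a block `c` of `C_G(D)` inducing `B` at the defect class (`x` depends on
`c`) -/
def PA13 : Prop :=
  ∀ {G : Type u} [Group G] [Finite G] {M : Ideal AlgInt} (_ : IsPModular 2 M) {B : Set (IrrCharacter G)}
    (_ : IsPBlock M B) {D : Subgroup G} (_ : IsDefectGroup 2 M B D) (_ : E16 D)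
    (c : Set (IrrCharacter ↥(Subgroup.centralizer (D : Set G))))
    (_ : IsInducedBlock M (Subgroup.centralizer (D : Set G)) c B),
    ∃ x : G, Odd (orderOf x) ∧ (∀ d ∈ D, d * x = x * d) ∧ (∀ Q : Subgroup G, IsPGroup 2 Q →
      (∀ q ∈ Q, q * x = x * q) → ∃ c : G, c * x = x * c ∧ ∀ q ∈ Q, c * q * c⁻¹ ∈ D) ∧
      ∀ θ ∈ c, ∀ h : x ∈ Subgroup.centralizer (D : Set G),
        (θ : ↥(Subgroup.centralizer (D : Set G)) → ℂ) ⟨x, h⟩ ≠ 0

/-- PA3 with `θ ∈ c` -/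
def PA3c : Prop :=
  ∀ {G : Type u} [Group G] [Finite G] {M : Ideal AlgInt} (_ : IsPModular 2 M) {B : Set (IrrCharacter G)}
    (_ : IsPBlock M B) {D : Subgroup G} (_ : IsDefectGroup 2 M B D) (_ : E16 D)
    (c : Set (IrrCharacter ↥(Subgroup.centralizer (D : Set G))))
    (_ : IsInducedBlock M (Subgroup.centralizer (D : Set G)) c B) (T : Subgroup G)
    (_ : ∀ g : G, g ∈ T ↔ (g ∈ Subgroup.normalizer (D : Set G) ∧
      StabilizesBlock (Subgroup.centralizer (D : Set G)) c g))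
    (_ : 5 ∣ (Subgroup.centralizer (D : Set G)).relIndex T),
    ∃ θ : IrrCharacter ↥(Subgroup.centralizer (D : Set G)), θ ∈ c ∧
      (∀ d e : ↥(Subgroup.centralizer (D : Set G)), (d : G) ∈ D →
        (θ : ↥(Subgroup.centralizer (D : Set G)) → ℂ) (d * e) = (θ : ↥(Subgroup.centralizer (D : Set G)) → ℂ) e) ∧
      (charDegree (θ : ↥(Subgroup.centralizer (D : Set G)) → ℂ)).factorization 2 + 4 =
        (Nat.card ↥(Subgroup.centralizer (D : Set G))).factorization 2 ∧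
      (∃ y : G, Five D y ∧ ∀ e e' : ↥(Subgroup.centralizer (D : Set G)), (e' : G) = y * e * y⁻¹ →
        (θ : ↥(Subgroup.centralizer (D : Set G)) → ℂ) e' = (θ : ↥(Subgroup.centralizer (D : Set G)) → ℂ) e) ∧
      ∀ g : G, (∀ d : G, g * d * g⁻¹ ∈ D ↔ d ∈ D) → (∃ k : ℕ, orderOf g = 2 ^ k) →
        (∀ e e' : ↥(Subgroup.centralizer (D : Set G)), (e' : G) = g * e * g⁻¹ →
          (θ : ↥(Subgroup.centralizer (D : Set G)) → ℂ) e' = (θ : ↥(Subgroup.centralizer (D : Set G)) → ℂ) e) →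
        ∀ d ∈ D, g * d = d * g

def PB1 : Prop :=
  ∀ {G : Type u} [Group G] [Finite G] {M : Ideal AlgInt} (_ : IsPModular 2 M) {B : Set (IrrCharacter G)}
    (_ : IsPBlock M B) {D : Subgroup G} (_ : IsDefectGroup 2 M B D) (_ : E16 D)
    (N : Subgroup G) [N.Normal] (b : Set (IrrCharacter ↥N)) (_ : IsPBlock M b)
    (_ : ∀ g : G, StabilizesBlock N b g) (_ : Cov N b B) (_ : D ≤ N), IsDefectGroup 2 M b (D.subgroupOf N)

def PB2 : Prop :=
  ∀ {G : Type u} [Group G] [Finite G] {M : Ideal AlgInt} (_ : IsPModular 2 M) {B : Set (IrrCharacter G)}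
    (_ : IsPBlock M B) {D : Subgroup G} (_ : IsDefectGroup 2 M B D) (_ : E16 D)
    (N : Subgroup G) [N.Normal] (b : Set (IrrCharacter ↥N)) (_ : IsPBlock M b)
    (_ : ∀ g : G, StabilizesBlock N b g) (_ : Cov N b B) (_ : D ⊓ N = ⊥),
    ∃ ξ : IrrCharacter ↥N, b = {ξ} ∧ Inv N ξ ∧
      (charDegree (ξ : ↥N → ℂ)).factorization 2 = (Nat.card ↥N).factorization 2

def PB3 : Prop :=
  ∀ {G : Type u} [Group G] [Finite G] {M : Ideal AlgInt} (_ : IsPModular 2 M) {B : Set (IrrCharacter G)}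
    (_ : IsPBlock M B) {D : Subgroup G} (_ : IsDefectGroup 2 M B D) (_ : E16 D)
    (N : Subgroup G) [N.Normal] (b : Set (IrrCharacter ↥N)) (_ : IsPBlock M b) (_ : Cov N b B)
    (T : Subgroup G) (_ : ∀ g : G, g ∈ T ↔ StabilizesBlock N b g) (_ : HZ ↥T),
    ∀ χ ∈ B, blockHeight 2 B (χ : G → ℂ) = 0

def PB4 : Prop :=
  ∀ {G : Type u} [Group G] [Finite G] {M : Ideal AlgInt} (_ : IsPModular 2 M) {B : Set (IrrCharacter G)}
    (_ : IsPBlock M B) {D : Subgroup G} (_ : IsDefectGroup 2 M B D) (_ : E16 D)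
    (N : Subgroup G) [N.Normal] (ξ : IrrCharacter ↥N) (_ : Inv N ξ)
    (_ : (charDegree (ξ : ↥N → ℂ)).factorization 2 = (Nat.card ↥N).factorization 2) (_ : Cov N {ξ} B)
    (_ : D ⊓ N = ⊥),
    ∃ (H : Type u) (_ : Group H) (_ : Finite H) (Z : Subgroup H) (_ : Z.Normal), Z ≤ Subgroup.center H ∧
      Nonempty (H ⧸ Z ≃* G ⧸ N) ∧ (HZ H → ∀ χ ∈ B, blockHeight 2 B (χ : G → ℂ) = 0)

def PB5 : Prop :=
  ∀ {G : Type u} [Group G] [Finite G] {M : Ideal AlgInt} (_ : IsPModular 2 M) {B : Set (IrrCharacter G)}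
    (_ : IsPBlock M B) {D : Subgroup G} (_ : IsDefectGroup 2 M B D) (_ : E16 D)
    (L H : Subgroup G) [L.Normal] [H.Normal] (_ : L ≤ H) (_ : D ≤ L) (_ : ∃ k : ℕ, L.relIndex H = 2 ^ k)
    (_ : ∀ N : Subgroup G, N.Normal → ∀ b : Set (IrrCharacter ↥N), IsPBlock M b → Cov N b B →
      ∀ g : G, StabilizesBlock N b g), L = H

def PB6 : Prop :=
  ∀ {G : Type u} [Group G] [Finite G] {M : Ideal AlgInt} (_ : IsPModular 2 M) {B : Set (IrrCharacter G)}
    (_ : IsPBlock M B) {D : Subgroup G} (_ : IsDefectGroup 2 M B D) (_ : E16 D)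
    (N : Subgroup G) [N.Normal] (_ : Odd N.index) (_ : HZ ↥N) (b : Set (IrrCharacter ↥N))
    (_ : IsPBlock M b) (_ : ∀ g : G, StabilizesBlock N b g) (_ : Cov N b B),
    ∀ χ ∈ B, blockHeight 2 B (χ : G → ℂ) = 0

def PB10 : Prop :=
  ∀ {G : Type u} [Group G] [Finite G] {M : Ideal AlgInt} (_ : IsPModular 2 M) {B : Set (IrrCharacter G)}
    (_ : IsPBlock M B) {D : Subgroup G} (_ : IsDefectGroup 2 M B D) (_ : E16 D)
    (N : Subgroup G), ∃ b : Set (IrrCharacter ↥N), IsPBlock M b ∧ Cov N b B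

def PB7 : Prop :=
  ∀ {G : Type u} [Group G] [Finite G] (D : Subgroup G) (_ : E16 D) (y : G) (_ : Five D y)
    (_ : ∀ N : Subgroup G, N.Normal → N ≤ Subgroup.center G ∨ D ≤ N) (_ : ¬ D.Normal)
    (_ : ∀ N : Subgroup G, N.Normal → IsPGroup 2 N → N ≤ D)
    (_ : ∀ N : Subgroup G, N.Normal → D ≤ N → ∀ g : G, ∃ n ∈ N, ∀ d ∈ D, n * (g * d * g⁻¹) * n⁻¹ ∈ D)
    (_ : ∀ N : Subgroup G, N.Normal → D ≤ N → ∃ e ∈ N, Odd (orderOf e) ∧ (∀ d ∈ D, d * e = e * d) ∧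
      ∀ Q : Subgroup G, Q ≤ N → IsPGroup 2 Q → (∀ q ∈ Q, q * e = e * q) →
        ∃ c ∈ N, c * e = e * c ∧ ∀ q ∈ Q, c * q * c⁻¹ ∈ D),
    ∃ K : Subgroup G, K.Normal ∧ IsQuasisimple ↥K ∧ D ≤ K ∧ Odd (Nat.card ↥(Subgroup.center ↥K)) ∧
      Subgroup.centralizer (K : Set G) ≤ Subgroup.center G

def PB8 : Prop :=
  ∀ {G : Type u} [Group G] [Finite G] (K : Subgroup G) [K.Normal] (_ : IsQuasisimple ↥K)
    (_ : Subgroup.centralizer (K : Set G) ≤ Subgroup.center G) (_ : Odd (Nat.card ↥(Subgroup.center G)))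
    (_ : ∀ L H : Subgroup G, L.Normal → H.Normal → L ≤ H → K ≤ L → (∃ k : ℕ, L.relIndex H = 2 ^ k) → L = H),
    Odd K.index

/-- everything used by the reduction -/
structure Inputs : Prop where
  a1 : PA1.{u}
  a5 : PA5.{u}
  b1 : PB1.{u}
  b2 : PB2.{u}
  b3 : PB3.{u}
  b4 : PB4.{u}
  b5 : PB5.{u}
  b6 : PB6.{u}
  b7 : PB7.{u}
  b8 : PB8.{u}
  b10 : PB10.{u}

end Cfsg.Agent.H613.KS.Props
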